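import Mathlib

/-!
The subgroup of `SL_2(9)` generated by two transvections with `λ ^ 2 = -1` has order `120`.
-/

set_option autoImplicit false

namespace Cfsg.Agent.PSLTwoSub.Nine

/-- The field with nine elements as pairs. -/
abbrev R9 := ZMod 3 × ZMod 3

def rmul (x y : R9) : R9 := (x.1 * y.1 - x.2 * y.2, x.1 * y.2 + x.2 * y.1)

/-- Two by two matrices over `R9`. -/
abbrev M9 := R9 × R9 × R9 × R9

def mmul : M9 → M9 → M9
  | (a, b, c, d), (e, f, g, h) =>
    (rmul a e + rmul b g, rmul a f + rmul b h, rmul c e + rmul d g, rmul c f + rmul d h)

def genM : Bool → M9
  | false => ((1, 0), (0, 0), (1, 0), (1, 0))
  | true => ((1, 0), (0, 1), (0, 0), (1, 0))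

def evalW : List Bool → M9 := List.foldl (fun m k => mmul m (genM k)) ((1, 0), (0, 0), (0, 0), (1, 0))

/-- A word for each of the 120 elements. -/
def words : List (List Bool) := [
  [],
  [false],
  [true],
  [false, false],
  [false, true],
  [true, false],
  [true, true],
  [false, false, true],
  [false, true, false],
  [false, true, true],
  [true, false, false],
  [true, false, true],
  [true, true, false],
  [false, false, true, false],
  [false, false, true, true],
  [false, true, false, false],
  [false, true, false, true],
  [false, true, true, false],
  [true, false, false, true],
  [true, false, true, false],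
  [true, false, true, true],
  [true, true, false, false],
  [true, true, false, true],
  [false, false, true, false, false],
  [false, false, true, false, true],
  [false, false, true, true, false],
  [false, true, false, false, true],
  [false, true, false, true, false],
  [false, true, false, true, true],
  [false, true, true, false, false],
  [false, true, true, false, true],
  [true, false, false, true, false],
  [true, false, false, true, true],
  [true, false, true, false, false],
  [true, false, true, true, false],
  [true, true, false, false, true],
  [true, true, false, true, false],
  [true, true, false, true, true],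
  [false, false, true, false, false, true],
  [false, false, true, false, true, false],
  [false, false, true, false, true, true],
  [false, false, true, true, false, false],
  [false, false, true, true, false, true],
  [false, true, false, false, true, false],
  [false, true, false, false, true, true],
  [false, true, false, true, false, false],
  [false, true, false, true, true, false],
  [false, true, true, false, false, true],
  [false, true, true, false, true, false],
  [false, true, true, false, true, true],
  [true, false, false, true, false, false],
  [true, false, false, true, false, true],
  [true, false, false, true, true, false],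
  [true, false, true, false, false, true],
  [true, false, true, true, false, false],
  [true, false, true, true, false, true],
  [true, true, false, false, true, false],
  [true, true, false, false, true, true],
  [true, true, false, true, false, false],
  [true, true, false, true, true, false],
  [false, false, true, false, false, true, false],
  [false, false, true, false, false, true, true],
  [false, false, true, false, true, false, false],
  [false, false, true, false, true, true, false],
  [false, false, true, true, false, false, true],
  [false, false, true, true, false, true, false],
  [false, false, true, true, false, true, true],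
  [false, true, false, false, true, false, false],
  [false, true, false, false, true, false, true],
  [false, true, false, false, true, true, false],
  [false, true, false, true, false, false, true],
  [false, true, false, true, true, false, false],
  [false, true, false, true, true, false, true],
  [false, true, true, false, false, true, false],
  [false, true, true, false, false, true, true],
  [false, true, true, false, true, false, false],
  [false, true, true, false, true, true, false],
  [true, false, false, true, false, false, true],
  [true, false, false, true, false, true, true],
  [true, false, false, true, true, false, false],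
  [true, false, false, true, true, false, true],
  [true, false, true, false, false, true, false],
  [true, false, true, true, false, false, true],
  [true, false, true, true, false, true, false],
  [true, false, true, true, false, true, true],
  [true, true, false, false, true, false, false],
  [true, true, false, false, true, true, false],
  [true, true, false, true, false, false, true],
  [true, true, false, true, true, false, false],
  [true, true, false, true, true, false, true],
  [false, false, true, false, false, true, false, true],
  [false, false, true, false, true, false, false, true],
  [false, false, true, false, true, true, false, false],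
  [false, false, true, false, true, true, false, true],
  [false, false, true, true, false, false, true, false],
  [false, false, true, true, false, false, true, true],
  [false, false, true, true, false, true, false, false],
  [false, true, false, false, true, false, true, true],
  [false, true, false, false, true, true, false, false],
  [false, true, false, false, true, true, false, true],
  [false, true, false, true, false, false, true, false],
  [false, true, false, true, true, false, false, true],
  [false, true, false, true, true, false, true, false],
  [false, true, false, true, true, false, true, true],
  [false, true, true, false, false, true, true, false],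
  [true, false, false, true, true, false, false, true],
  [true, false, false, true, true, false, true, false],
  [true, false, true, false, false, true, false, true],
  [true, false, true, true, false, false, true, false],
  [true, false, true, true, false, true, false, false],
  [true, true, false, false, true, true, false, false],
  [true, true, false, true, false, false, true, false],
  [false, false, true, false, true, false, false, true, false],
  [false, false, true, false, true, true, false, true, false],
  [false, false, true, true, false, false, true, true, false],
  [false, true, false, true, false, false, true, false, true],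
  [false, true, false, true, true, false, true, false, false],
  [false, true, true, false, false, true, true, false, false],
  [false, false, true, false, true, false, false, true, false, true],
  [false, false, true, true, false, false, true, true, false, false]]

def table : List M9 := words.map evalW

theorem table_nodup : table.Nodup := by decide +kernel

theorem table_length : table.length = 120 := by decide +kernel

theorem table_closed : (table.all fun m => decide (mmul m (genM false) ∈ table) && decide (mmul m (genM true) ∈ table)) = true := by
  decide +kernel

theorem one_mem_table : evalW [] ∈ table := by decide +kernel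

section

variable {F : Type*} [Field F] [Fintype F] [CharP F 3] (lam : F)

/-- Evaluation at `lam`. -/
def ev (x : R9) : F := (ZMod.castHom (dvd_refl 3) F x.1) + (ZMod.castHom (dvd_refl 3) F x.2) * lam

def evM : M9 → Matrix (Fin 2) (Fin 2) F
  | (a, b, c, d) => !![ev lam a, ev lam b; ev lam c, ev lam d]

variable {lam} (hl : lam ^ 2 = -1)
include hl

theorem ev_mul (x y : R9) : ev lam (rmul x y) = ev lam x * ev lam y := by
  simp only [ev, rmul, map_sub, map_mul, map_add]
  linear_combination (-(ZMod.castHom (dvd_refl 3) F x.2 * ZMod.castHom (dvd_refl 3) F y.2)) * hl

theorem ev_injective : Function.Injective (ev lam) := by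
  intro x y e
  by_contra hne
  simp only [ev] at e
  have hdec : ∀ u v : ZMod 3, u * u + v * v = 0 → u = 0 ∧ v = 0 := by decide
  have h : ZMod.castHom (dvd_refl 3) F ((x.1 - y.1) * (x.1 - y.1) + (x.2 - y.2) * (x.2 - y.2))
      = ZMod.castHom (dvd_refl 3) F 0 := by
    simp only [map_add, map_mul, map_sub, map_zero]
    linear_combination
      ((ZMod.castHom (dvd_refl 3) F x.1 - ZMod.castHom (dvd_refl 3) F y.1)
        - (ZMod.castHom (dvd_refl 3) F x.2 - ZMod.castHom (dvd_refl 3) F y.2) * lam) * e
      + ((ZMod.castHom (dvd_refl 3) F x.2 - ZMod.castHom (dvd_refl 3) F y.2) ^ 2) * hl
  have := hdec _ _ ((RingHom.injective _) h)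
  exact hne (Prod.ext (sub_eq_zero.1 this.1) (sub_eq_zero.1 this.2))

theorem ev_add (x y : R9) : ev lam (x + y) = ev lam x + ev lam y := by
  simp only [ev, Prod.fst_add, Prod.snd_add, map_add]; ring

theorem evM_mul (A B : M9) : evM lam (mmul A B) = evM lam A * evM lam B := by
  obtain ⟨a, b, c, d⟩ := A
  obtain ⟨e, f, g, h⟩ := B
  simp [evM, mmul, ev_add hl, ev_mul hl, Matrix.mul_fin_two]

theorem evM_injective : Function.Injective (evM lam) := by
  rintro ⟨a, b, c, d⟩ ⟨e, f, g, h⟩ he
  have h1 := congrFun₂ he 0 0
  have h2 := congrFun₂ he 0 1
  have h3 := congrFun₂ he 1 0
  have h4 := congrFun₂ he 1 1
  simp [evM] at h1 h2 h3 h4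
  rw [ev_injective hl h1, ev_injective hl h2, ev_injective hl h3, ev_injective hl h4]

theorem card_closure :
    Nat.card (Subgroup.closure {g : Matrix.SpecialLinearGroup (Fin 2) F |
      (g : Matrix (Fin 2) (Fin 2) F) = !![1, 0; 1, 1] ∨
      (g : Matrix (Fin 2) (Fin 2) F) = !![1, lam; 0, 1]}) = 120 := by
  set S := {g : Matrix.SpecialLinearGroup (Fin 2) F |
      (g : Matrix (Fin 2) (Fin 2) F) = !![1, 0; 1, 1] ∨
      (g : Matrix (Fin 2) (Fin 2) F) = !![1, lam; 0, 1]}
  have hgen : ∀ k, evM lam (genM k) = if k then !![1, lam; 0, 1] else !![1, 0; 1, 1] := by
    intro k; cases k <;> simp [genM, evM, ev]
  have hone : evM lam (evalW []) = 1 := by simp [evalW, evM, ev, Matrix.one_fin_two]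
  have hgS : ∀ k, ∃ g ∈ S, (g : Matrix (Fin 2) (Fin 2) F) = evM lam (genM k) := by
    intro k
    refine ⟨⟨evM lam (genM k), by rw [hgen]; cases k <;> simp⟩, ?_, rfl⟩
    cases k
    · exact Or.inl (hgen false)
    · exact Or.inr (hgen true)
  have hword : ∀ w, ∃ g ∈ Subgroup.closure S, (g : Matrix (Fin 2) (Fin 2) F) = evM lam (evalW w) := by
    intro w
    induction w using List.reverseRecOn with
    | nil => exact ⟨1, one_mem _, by rw [hone]; simp⟩
    | append_singleton w k ih =>
      obtain ⟨g, hg, e⟩ := ih
      obtain ⟨s, hs, es⟩ := hgS k
      refine ⟨g * s, mul_mem hg (Subgroup.subset_closure hs), ?_⟩
      rw [show evalW (w ++ [k]) = mmul (evalW w) (genM k) by simp [evalW], evM_mul hl, ← e, ← es]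
      simp
  have hstep : ∀ g ∈ Subgroup.closure S, ∃ m ∈ table, (g : Matrix (Fin 2) (Fin 2) F) = evM lam m := by
    intro g hg
    rw [← Subgroup.mem_toSubmonoid, Subgroup.closure_toSubmonoid_of_finite] at hg
    induction hg using Submonoid.closure_induction_right with
    | one => exact ⟨_, one_mem_table, by rw [hone]; simp⟩
    | mul_right x _ y hy ih =>
      obtain ⟨m, hm, e⟩ := ih
      have := List.all_eq_true.1 table_closed m hm
      simp only [Bool.and_eq_true, decide_eq_true_eq] at this
      rcases hy with hy | hy
      · exact ⟨_, this.1, by rw [Matrix.SpecialLinearGroup.coe_mul, evM_mul hl, hgen, e, hy]; rfl⟩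
      · exact ⟨_, this.2, by rw [Matrix.SpecialLinearGroup.coe_mul, evM_mul hl, hgen, e, hy]; rfl⟩
  have himg : (fun g : Matrix.SpecialLinearGroup (Fin 2) F => (g : Matrix (Fin 2) (Fin 2) F)) ''
      (Subgroup.closure S : Set _) = evM lam '' {m | m ∈ table} := by
    ext M
    constructor
    · rintro ⟨g, hg, rfl⟩
      obtain ⟨m, hm, e⟩ := hstep g hg
      exact ⟨m, hm, e.symm⟩
    · rintro ⟨m, hm, rfl⟩
      obtain ⟨w, -, rfl⟩ := List.mem_map.1 hm
      obtain ⟨g, hg, e⟩ := hword w
      exact ⟨g, hg, e⟩
  rw [← SetLike.coe_sort_coe, Nat.card_coe_set_eq, ← Set.ncard_image_of_injective _ (f := fun g : Matrix.SpecialLinearGroup (Fin 2) F => (g : Matrix (Fin 2) (Fin 2) F)) (fun _ _ e => Subtype.ext e)]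
  rw [himg,
    Set.ncard_image_of_injective _ (evM_injective hl), ← List.coe_toFinset table, Set.ncard_coe_finset,
    List.toFinset_card_of_nodup table_nodup, table_length]

end

end Cfsg.Agent.PSLTwoSub.Nine
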