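import Cfsg.Agent.PSLTwoSub.Platonic
import Cfsg.Agent.PSLTwoSub.Nine
import Cfsg.Agent.MaxSub.Dickson.Classify
import Cfsg.Agent.Linear.Transvection

/-! Dickson: generation of `SL_2` by two transvections. -/

set_option autoImplicit false

namespace Cfsg.Agent.PSLTwoSub

open Matrix
open scoped MatrixGroups OnePoint Cfsg.Agent.MaxSub.Dickson

theorem alt_four_pow : ∀ g : Equiv.Perm (Fin 4), Equiv.Perm.sign g = 1 → g ^ 2 = 1 ∨ g ^ 3 = 1 := by
  decide +kernel

theorem perm_four_pow : ∀ g : Equiv.Perm (Fin 4), g ^ 2 = 1 ∨ g ^ 3 = 1 ∨ g ^ 4 = 1 := by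
  decide +kernel

theorem alt_five_pow : ∀ g : Equiv.Perm (Fin 5), Equiv.Perm.sign g = 1 →
    g ^ 2 = 1 ∨ g ^ 3 = 1 ∨ g ^ 5 = 1 := by
  decide +kernel

variable {F : Type*} [Field F] [Fintype F]

section

variable (p : ℕ) [Fact p.Prime] [CharP F p]
include p

/-- If `lam` lies in the prime field the two transvections generate. -/
theorem gen_of_mem_bot {lam : F} (hlam : lam ≠ 0)
    (hgen : Subfield.closure ({lam} : Set F) = ⊤) (hb : lam ∈ (⊥ : Subfield F))
    (H : Subgroup SL(2, F)) (hL : Matrix.SpecialLinearGroup.transvection (show (1 : Fin 2) ≠ 0 by decide) (1 : F) ∈ H)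
    (hU : Matrix.SpecialLinearGroup.transvection (show (0 : Fin 2) ≠ 1 by decide) lam ∈ H) : H = ⊤ := by
  have hbot : (⊥ : Subfield F) = ⊤ := by
    rw [eq_top_iff, ← hgen, Subfield.closure_le]
    simpa using hb
  have hnat : ∀ x : F, ∃ k : ℕ, (k : F) = x := by
    intro x
    have hx : x ∈ (⊥ : Subfield F) := hbot ▸ Subfield.mem_top x
    have hle : (⊥ : Subfield F) ≤ (ZMod.castHom (dvd_refl p) F).fieldRange := bot_le
    obtain ⟨k, hk⟩ := hle hx
    exact ⟨k.val, by rw [← hk, ZMod.natCast_val]; rfl⟩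
  have hmem : ∀ (i j : Fin 2) (hij : i ≠ j) (a : F), Matrix.SpecialLinearGroup.transvection hij a ∈ H →
      ∀ k : ℕ, Matrix.SpecialLinearGroup.transvection hij ((k : F) * a) ∈ H := by
    intro i j hij a ha k
    have e : ∀ k : ℕ, Matrix.SpecialLinearGroup.transvection hij ((k : F) * a)
        = Matrix.SpecialLinearGroup.transvection hij a ^ k := by
      intro k
      induction k with
      | zero => rw [pow_zero]; apply Subtype.ext; simp [Matrix.SpecialLinearGroup.transvection, Matrix.transvection]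
      | succ k ih =>
        rw [pow_succ, ← ih]
        apply Subtype.ext
        rw [Matrix.SpecialLinearGroup.coe_mul]
        show Matrix.transvection i j (((k + 1 : ℕ) : F) * a)
          = Matrix.transvection i j ((k : F) * a) * Matrix.transvection i j a
        rw [Matrix.transvection_mul_transvection_same _ _ hij]
        congr 1
        push_cast; ring
    rw [e]; exact pow_mem ha k
  refine Linear.eq_top_of_transvection_mem H fun i j hij c => ?_
  fin_cases i <;> fin_cases j
  · exact absurd rfl hij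
  · obtain ⟨k, hk⟩ := hnat (c / lam)
    have := hmem _ _ (show (0 : Fin 2) ≠ 1 by decide) _ hU k
    rwa [hk, div_mul_cancel₀ _ hlam] at this
  · obtain ⟨k, hk⟩ := hnat c
    have := hmem _ _ (show (1 : Fin 2) ≠ 0 by decide) _ hL k
    rwa [hk, mul_one] at this
  · exact absurd rfl hij

end

variable {K : Type*} [Field K] (φ : F →+* K)

/-- `SL_2(F) → PGL_2(K)`. -/
noncomputable def projHom : SL(2, F) →* PGL(2, K) :=
  Matrix.SpecialLinearGroup.toPGL.comp (Matrix.SpecialLinearGroup.map φ)

omit [Fintype F] in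
theorem projHom_eq_one {g : SL(2, F)} (h : projHom φ g = 1) :
    (g : Matrix (Fin 2) (Fin 2) F) 0 1 = 0 ∧ (g : Matrix (Fin 2) (Fin 2) F) 1 0 = 0 ∧
      (g : Matrix (Fin 2) (Fin 2) F) 0 0 = (g : Matrix (Fin 2) (Fin 2) F) 1 1 := by
  have h' : Matrix.SpecialLinearGroup.map φ g ∈ (Matrix.SpecialLinearGroup.toPGL (n := Fin 2) (R := K)).ker := h
  rw [Matrix.SpecialLinearGroup.toPGL_ker] at h'
  obtain ⟨r, -, hr⟩ := Matrix.SpecialLinearGroup.mem_center_iff.1 h'
  have e : ∀ i j, φ ((g : Matrix (Fin 2) (Fin 2) F) i j) = Matrix.scalar (Fin 2) r i j := by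
    intro i j; rw [hr]; rfl
  refine ⟨φ.injective ?_, φ.injective ?_, φ.injective ?_⟩
  · rw [e, map_zero]; simp
  · rw [e, map_zero]; simp
  · rw [e, e]; simp

omit [Fintype F] in
/-- The trace conditions for elements of small order in `PGL_2`. -/
theorem trace_conditions {g : SL(2, F)} (h01 : (g : Matrix (Fin 2) (Fin 2) F) 0 1 ≠ 0)
    {t : F} (ht : Matrix.trace (g : Matrix (Fin 2) (Fin 2) F) = t) :
    (projHom φ g ^ 2 = 1 → t = 0) ∧ (projHom φ g ^ 3 = 1 → t ^ 2 - 1 = 0) ∧
      (projHom φ g ^ 4 = 1 → t * (t ^ 2 - 2) = 0) ∧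
      (projHom φ g ^ 5 = 1 → t ^ 4 - 3 * t ^ 2 + 1 = 0) := by
  have hsq := sq_apply g
  rw [ht] at hsq
  refine ⟨fun h => ?_, fun h => ?_, fun h => ?_, fun h => ?_⟩
  all_goals
    rw [← map_pow] at h
    have h' := (projHom_eq_one φ h).1
    simp only [Matrix.SpecialLinearGroup.coe_pow] at h'
  · rw [pow_two, hsq] at h'
    simp at h'
    exact h'.resolve_right h01
  · rw [pow_three, hsq, mul_sub, mul_smul_comm, hsq, mul_one] at h'
    simp at h'
    exact (mul_eq_zero.1 (show (t ^ 2 - 1) * (g : Matrix (Fin 2) (Fin 2) F) 0 1 = 0 by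
      linear_combination h')).resolve_right h01
  · rw [show (4 : ℕ) = 2 * 2 by norm_num, pow_mul, pow_two, pow_two, hsq] at h'
    simp [sub_mul, mul_sub, hsq, smul_sub, smul_smul] at h'
    exact (mul_eq_zero.1 (show t * (t ^ 2 - 2) * (g : Matrix (Fin 2) (Fin 2) F) 0 1 = 0 by
      linear_combination h')).resolve_right h01
  · rw [pow_five_apply, ht] at h'
    simp at h'
    exact h'.resolve_right h01

omit [Fintype F] in
theorem eq_one_or_neg_of_sq {g : SL(2, F)} (h2 : (2 : F) ≠ 0) (h : g ^ 2 = 1) : g = 1 ∨ g = -1 := by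
  have hsq := sq_apply g
  have e : (g : Matrix (Fin 2) (Fin 2) F) * (g : Matrix (Fin 2) (Fin 2) F) = 1 := by
    rw [← pow_two, ← Matrix.SpecialLinearGroup.coe_pow, h, Matrix.SpecialLinearGroup.coe_one]
  rw [e] at hsq
  have e00 := congrFun₂ hsq 0 0
  have e01 := congrFun₂ hsq 0 1
  have e10 := congrFun₂ hsq 1 0
  have e11 := congrFun₂ hsq 1 1
  have hd := g.2
  rw [Matrix.det_fin_two] at hd
  simp [Matrix.trace_fin_two] at e00 e01 e10 e11
  set a := (g : Matrix (Fin 2) (Fin 2) F) 0 0 with ha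
  set b := (g : Matrix (Fin 2) (Fin 2) F) 0 1 with hb
  set c := (g : Matrix (Fin 2) (Fin 2) F) 1 0 with hc
  set d := (g : Matrix (Fin 2) (Fin 2) F) 1 1 with hd'
  have hne : a + d ≠ 0 := fun h0 => h2 (by linear_combination e00 + a * h0)
  have b0 : b = 0 := e01.resolve_left hne
  have c0 : c = 0 := e10.resolve_left hne
  have ad : a = d := sub_eq_zero.1 ((mul_eq_zero.1
    (show (a + d) * (a - d) = 0 by linear_combination e11 - e00)).resolve_left hne)
  rcases mul_self_eq_mul_self_iff.1 (show a * a = 1 * 1 by rw [b0, ← ad] at hd; linear_combination hd) with h1 | h1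
  · left; apply Subtype.ext; ext i j
    fin_cases i <;> fin_cases j <;> simp [← ha, ← hb, ← hc, ← hd', b0, c0, ← ad, h1]
  · right; apply Subtype.ext; ext i j
    fin_cases i <;> fin_cases j <;> simp [← ha, ← hb, ← hc, ← hd', b0, c0, ← ad, h1]

omit [Fintype F] in
/-- `trace ^ 2 / det` of an element conjugate into `PGL_2` of a subfield lies in it. -/
theorem trace_sq_mem (F₀ : Subfield K) (h : PGL(2, K)) (g : SL(2, F))
    (hg : h⁻¹ * projHom φ g * h ∈ (MaxSub.Dickson.subPGL F₀).range) :
    φ (Matrix.trace (g : Matrix (Fin 2) (Fin 2) F)) ^ 2 ∈ F₀ := by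
  obtain ⟨a, ha⟩ := hg
  obtain ⟨A, rfl⟩ := ProjGenLinGroup.mk_surjective a
  obtain ⟨Hm, rfl⟩ := ProjGenLinGroup.mk_surjective h
  set M : GL (Fin 2) K := Matrix.SpecialLinearGroup.toGL (Matrix.SpecialLinearGroup.map φ g)
  have e : ProjGenLinGroup.mk (GeneralLinearGroup.map F₀.subtype A)
      = ProjGenLinGroup.mk (Hm⁻¹ * M * Hm) := by
    rw [map_mul, map_mul, map_inv]; exact ha
  obtain ⟨u, hu⟩ := ProjGenLinGroup.mk_eq_mk_iff.1 e
  have hM : (Hm⁻¹ * M * Hm : GL (Fin 2) K).val
      = (u : K) • (A.val.map F₀.subtype : Matrix (Fin 2) (Fin 2) K) := by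
    rw [← hu]
    ext i j
    fin_cases i <;> fin_cases j <;>
      simp [Matrix.mul_apply, Fin.sum_univ_two, Matrix.GeneralLinearGroup.map] <;> ring
  have h1 : Matrix.trace (Hm⁻¹ * M * Hm : GL (Fin 2) K).val = φ (Matrix.trace (g : Matrix (Fin 2) (Fin 2) F)) := by
    rw [Units.val_mul, Matrix.trace_mul_comm, ← Units.val_mul,
      show Hm * (Hm⁻¹ * M) = M from mul_inv_cancel_left _ _]
    simp [M, Matrix.trace_fin_two]
  have h2 : Matrix.det (Hm⁻¹ * M * Hm : GL (Fin 2) K).val = 1 := by
    rw [Units.val_mul, Matrix.det_mul, mul_comm, ← Matrix.det_mul, ← Units.val_mul,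
      show Hm * (Hm⁻¹ * M) = M from mul_inv_cancel_left _ _]
    exact (Matrix.SpecialLinearGroup.map φ g).2
  rw [hM, Matrix.det_smul, Fintype.card_fin] at h2
  rw [hM, Matrix.trace_smul, smul_eq_mul] at h1
  have hdet : Matrix.det (A.val.map F₀.subtype) = F₀.subtype A.val.det := (RingHom.map_det _ _).symm
  have htr : Matrix.trace (A.val.map F₀.subtype) = F₀.subtype A.val.trace := by
    simp [Matrix.trace_fin_two]
  rw [hdet] at h2
  rw [htr] at h1
  have : φ (Matrix.trace (g : Matrix (Fin 2) (Fin 2) F)) ^ 2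
      = F₀.subtype (A.val.trace ^ 2 * A.val.det⁻¹) := by
    rw [map_mul, map_inv₀, map_pow, ← h1, ← eq_inv_of_mul_eq_one_left h2, mul_pow]
    ring
  rw [this]
  exact (A.val.trace ^ 2 * A.val.det⁻¹).2

theorem card_PSL_two_mul_mono {F' : Type*} [Field F'] [Fintype F'] (hodd : Odd (Fintype.card F))
    (hodd' : Odd (Fintype.card F')) (hle : Fintype.card F ≤ Fintype.card F') :
    Nat.card (Matrix.ProjectiveSpecialLinearGroup (Fin 2) F) ≤
      Nat.card (Matrix.ProjectiveSpecialLinearGroup (Fin 2) F') := by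
  have h1 := Linear.card_PSL_two_mul (F := F)
  have h2 := Linear.card_PSL_two_mul (F := F')
  rw [Linear.gcd_two_of_odd hodd] at h1
  rw [Linear.gcd_two_of_odd hodd'] at h2
  have : Fintype.card F * (Fintype.card F - 1) * (Fintype.card F + 1)
      ≤ Fintype.card F' * (Fintype.card F' - 1) * (Fintype.card F' + 1) := by gcongr
  omega

set_option maxHeartbeats 1000000 in
/-- The generation theorem outside the exceptional case. -/
theorem closure_eq_top (h2 : (2 : F) ≠ 0) {lam : F} (hlam : lam ≠ 0)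
    (hgen : Subfield.closure ({lam} : Set F) = ⊤) (hexc : ¬ (Fintype.card F = 9 ∧ lam ^ 2 = -1)) :
    Subgroup.closure {g : SL(2, F) | (g : Matrix (Fin 2) (Fin 2) F) = !![1, 0; 1, 1] ∨
      (g : Matrix (Fin 2) (Fin 2) F) = !![1, lam; 0, 1]} = ⊤ := by
  classical
  obtain ⟨p, hpc, n, hp, hcard⟩ := FiniteField.card' F
  haveI : CharP F p := hpc
  haveI : Fact p.Prime := ⟨hp⟩
  have hp2 : p ≠ 2 := by rintro rfl; exact h2 CharTwo.two_eq_zero
  set S := {g : SL(2, F) | (g : Matrix (Fin 2) (Fin 2) F) = !![1, 0; 1, 1] ∨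
      (g : Matrix (Fin 2) (Fin 2) F) = !![1, lam; 0, 1]}
  set H := Subgroup.closure S
  let L : SL(2, F) := mk22 1 0 1 1 (by ring)
  let U : SL(2, F) := mk22 1 lam 0 1 (by ring)
  have hL : L ∈ H := Subgroup.subset_closure (Or.inl rfl)
  have hU : U ∈ H := Subgroup.subset_closure (Or.inr rfl)
  by_cases hb : lam ∈ (⊥ : Subfield F)
  · refine gen_of_mem_bot p hlam hgen hb H ?_ ?_
    · convert hL using 1
      ext i j; fin_cases i <;> fin_cases j <;>
        simp [L, Matrix.SpecialLinearGroup.transvection, Matrix.transvection, Matrix.single]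
    · convert hU using 1
      ext i j; fin_cases i <;> fin_cases j <;>
        simp [U, Matrix.SpecialLinearGroup.transvection, Matrix.transvection, Matrix.single]
  let K := AlgebraicClosure F
  haveI : CharP K p := charP_of_injective_ringHom (algebraMap F K).injective p
  haveI : DecidableEq K := Classical.decEq K
  let φ : F →+* K := algebraMap F K
  let G : Subgroup PGL(2, K) := H.map (projHom φ)
  haveI : Finite G := Finite.of_surjective (fun h : H => (⟨projHom φ h, h, h.2, rfl⟩ : G)) (by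
    rintro ⟨_, h, hh, rfl⟩; exact ⟨⟨h, hh⟩, rfl⟩)
  have hUfix : ∀ a : OnePoint K, projHom φ U • a = a → a = ∞ := by
    intro a ha
    cases a using OnePoint.rec with
    | infty => rfl
    | coe x =>
      exfalso
      change ProjGenLinGroup.mk (Matrix.SpecialLinearGroup.toGL (Matrix.SpecialLinearGroup.map φ U)) • (x : OnePoint K) = x at ha
      rw [MaxSub.Dickson.mk_smul, OnePoint.smul_some_eq_ite] at ha
      simp [U] at ha
      exact hlam ha
  have hLfix : projHom φ L • (∞ : OnePoint K) ≠ ∞ := by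
    intro ha
    change ProjGenLinGroup.mk (Matrix.SpecialLinearGroup.toGL (Matrix.SpecialLinearGroup.map φ L)) • (∞ : OnePoint K) = ∞ at ha
    rw [MaxSub.Dickson.mk_smul, OnePoint.smul_infty_eq_self_iff] at ha
    simp [L] at ha
  have hne1 : ∀ g : SL(2, F), (g : Matrix (Fin 2) (Fin 2) F) 0 1 ≠ 0 → projHom φ g ≠ 1 :=
    fun g hg e => hg (projHom_eq_one φ e).1
  have hpU : orderOf (⟨projHom φ U, U, hU, rfl⟩ : G) = p := by
    have hpow : ∀ k : ℕ, ((U ^ k : SL(2, F)) : Matrix (Fin 2) (Fin 2) F) = !![1, (k : F) * lam; 0, 1] := by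
      intro k
      induction k with
      | zero => simp [Matrix.one_fin_two]
      | succ k ih =>
        rw [pow_succ, Matrix.SpecialLinearGroup.coe_mul, ih]
        simp [U, Matrix.mul_fin_two, add_mul, add_comm]
    refine orderOf_eq_prime ?_ ?_
    · apply Subtype.ext
      simp only [SubmonoidClass.coe_pow, OneMemClass.coe_one]
      rw [← map_pow, show U ^ p = 1 from Subtype.ext (by rw [hpow, CharP.cast_eq_zero, zero_mul]; simp [Matrix.one_fin_two]), map_one]
    · intro e
      exact hne1 U (by simpa [U] using hlam) (congrArg Subtype.val e)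
  have hdvd : p ∣ Nat.card G := hpU ▸ orderOf_dvd_natCard _
  -- the two test elements
  let g₁ : SL(2, F) := U * L
  let g₂ : SL(2, F) := U⁻¹ * L
  have hg₁ : projHom φ g₁ ∈ G := ⟨g₁, mul_mem hU hL, rfl⟩
  have hg₂ : projHom φ g₂ ∈ G := ⟨g₂, mul_mem (inv_mem hU) hL, rfl⟩
  have c₁ : (g₁ : Matrix (Fin 2) (Fin 2) F) 0 1 ≠ 0 := by simpa [g₁, U, L] using hlam
  have c₂ : (g₂ : Matrix (Fin 2) (Fin 2) F) 0 1 ≠ 0 := by
    simpa [g₂, U, L, Matrix.adjugate_fin_two] using hlam
  have t₁ : Matrix.trace (g₁ : Matrix (Fin 2) (Fin 2) F) = 2 + lam := by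
    simp [g₁, U, L, Matrix.trace_fin_two]; ring
  have t₂ : Matrix.trace (g₂ : Matrix (Fin 2) (Fin 2) F) = 2 - lam := by
    simp [g₂, U, L, Matrix.trace_fin_two, Matrix.adjugate_fin_two]; ring
  have hbot_int : ∀ t : F, t ^ 2 = 1 ∨ t = 0 → t ∈ (⊥ : Subfield F) := by
    intro t ht
    rcases ht with ht | rfl
    · rcases mul_self_eq_mul_self_iff.1 (show t * t = 1 * 1 by linear_combination ht) with h | h <;>
        rw [h]
      · exact one_mem _
      · exact neg_mem (one_mem _)
    · exact zero_mem _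
  have hnotin : ∀ t : F, t = 2 + lam ∨ t = 2 - lam → t ∉ (⊥ : Subfield F) := by
    intro t ht hmem
    apply hb
    have h2' : (2 : F) ∈ (⊥ : Subfield F) := natCast_mem _ 2
    rcases ht with rfl | rfl
    · simpa using sub_mem hmem h2'
    · simpa using sub_mem h2' hmem
  have n₁ : ∀ {k : ℕ}, (⟨projHom φ g₁, hg₁⟩ : G) ^ k = 1 → projHom φ g₁ ^ k = 1 :=
    fun e => congrArg Subtype.val e
  have n₂ : ∀ {k : ℕ}, (⟨projHom φ g₂, hg₂⟩ : G) ^ k = 1 → projHom φ g₂ ^ k = 1 :=
    fun e => congrArg Subtype.val e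
  obtain ⟨a₁, b₁, d₁, e₁⟩ := trace_conditions φ c₁ t₁
  obtain ⟨a₂, b₂, d₂, e₂⟩ := trace_conditions φ c₂ t₂
  have small : ∀ {g : SL(2, F)} {t : F}, (t = 2 + lam ∨ t = 2 - lam) →
      (projHom φ g ^ 2 = 1 → t = 0) → (projHom φ g ^ 3 = 1 → t ^ 2 - 1 = 0) →
      projHom φ g ^ 2 ≠ 1 ∧ projHom φ g ^ 3 ≠ 1 := by
    intro g t ht ha hb'
    exact ⟨fun h => hnotin t ht (hbot_int t (Or.inr (ha h))),
      fun h => hnotin t ht (hbot_int t (Or.inl (sub_eq_zero.1 (hb' h))))⟩
  obtain ⟨s₁, s₁'⟩ := small (Or.inl rfl) a₁ b₁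
  obtain ⟨s₂, s₂'⟩ := small (Or.inr rfl) a₂ b₂
  rcases MaxSub.Dickson.classify (p := p) G with ⟨-, hc⟩ | ⟨a, b, m, -, -, hpm, -, -, -, hc⟩ |
    ⟨⟨a, ha⟩, -⟩ | ⟨-, -, ⟨e⟩⟩ | ⟨-, hc, ⟨e⟩⟩ | ⟨-, hc, ⟨e⟩⟩ | ⟨F₀, h, hfin, -, hmap, -⟩
  · exact absurd hdvd hc
  · rw [hc] at hdvd
    rcases (Fact.out : p.Prime).dvd_mul.1 hdvd with h' | h'
    · exact absurd ((Nat.prime_dvd_prime_iff_eq hp Nat.prime_two).1 h') hp2
    · exact absurd h' hpm
  · have h' := hUfix a (ha _ ⟨U, hU, rfl⟩)
    subst h'
    exact absurd (ha _ ⟨L, hL, rfl⟩) hLfix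
  · exfalso
    rcases alt_four_pow _ (e ⟨_, hg₁⟩).2 with h' | h'
    · exact s₁ (n₁ (e.injective (by rw [map_pow, map_one]; exact Subtype.ext h')))
    · exact s₁' (n₁ (e.injective (by rw [map_pow, map_one]; exact Subtype.ext h')))
  · exfalso
    have q₁ : (2 + lam) * ((2 + lam) ^ 2 - 2) = 0 := by
      rcases perm_four_pow (e ⟨_, hg₁⟩) with h' | h' | h'
      · exact absurd (n₁ (e.injective (by rw [map_pow, map_one]; exact h'))) s₁
      · exact absurd (n₁ (e.injective (by rw [map_pow, map_one]; exact h'))) s₁'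
      · exact d₁ (n₁ (e.injective (by rw [map_pow, map_one]; exact h')))
    have q₂ : (2 - lam) * ((2 - lam) ^ 2 - 2) = 0 := by
      rcases perm_four_pow (e ⟨_, hg₂⟩) with h' | h' | h'
      · exact absurd (n₂ (e.injective (by rw [map_pow, map_one]; exact h'))) s₂
      · exact absurd (n₂ (e.injective (by rw [map_pow, map_one]; exact h'))) s₂'
      · exact d₂ (n₂ (e.injective (by rw [map_pow, map_one]; exact h')))
    have r₁ := (mul_eq_zero.1 q₁).resolve_left
      (fun h0 => hnotin _ (Or.inl rfl) (by rw [h0]; exact zero_mem _))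
    have r₂ := (mul_eq_zero.1 q₂).resolve_left
      (fun h0 => hnotin _ (Or.inr rfl) (by rw [h0]; exact zero_mem _))
    have : (2 : F) * 2 * 2 * lam = 0 := by linear_combination r₁ - r₂
    simp only [mul_eq_zero, or_self, or_false, false_or, h2, hlam] at this
  · have q₁ : (2 + lam) ^ 4 - 3 * (2 + lam) ^ 2 + 1 = 0 := by
      rcases alt_five_pow _ (e ⟨_, hg₁⟩).2 with h' | h' | h'
      · exact absurd (n₁ (e.injective (by rw [map_pow, map_one]; exact Subtype.ext h'))) s₁
      · exact absurd (n₁ (e.injective (by rw [map_pow, map_one]; exact Subtype.ext h'))) s₁'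
      · exact e₁ (n₁ (e.injective (by rw [map_pow, map_one]; exact Subtype.ext h')))
    have q₂ : (2 - lam) ^ 4 - 3 * (2 - lam) ^ 2 + 1 = 0 := by
      rcases alt_five_pow _ (e ⟨_, hg₂⟩).2 with h' | h' | h'
      · exact absurd (n₂ (e.injective (by rw [map_pow, map_one]; exact Subtype.ext h'))) s₂
      · exact absurd (n₂ (e.injective (by rw [map_pow, map_one]; exact Subtype.ext h'))) s₂'
      · exact e₂ (n₂ (e.injective (by rw [map_pow, map_one]; exact Subtype.ext h')))
    rw [hc] at hdvd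
    have hp35 : p = 3 ∨ p = 5 := by
      have hpp : p.Prime := hp
      rw [show (60 : ℕ) = 2 * 2 * (3 * 5) by norm_num] at hdvd
      rcases hpp.dvd_mul.1 hdvd with h' | h'
      · rcases hpp.dvd_mul.1 h' with h'' | h'' <;>
          exact absurd ((Nat.prime_dvd_prime_iff_eq hpp Nat.prime_two).1 h'') hp2
      · rcases hpp.dvd_mul.1 h' with h'' | h''
        · exact Or.inl ((Nat.prime_dvd_prime_iff_eq hpp Nat.prime_three).1 h'')
        · exact Or.inr ((Nat.prime_dvd_prime_iff_eq hpp Nat.prime_five).1 h'')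
    exfalso
    rcases hp35 with rfl | rfl
    · have h3 : (3 : F) = 0 := by exact_mod_cast CharP.cast_eq_zero F 3
      have hl2 : lam ^ 2 = -1 := by
        have h' : (2 : F) * 2 * 2 * lam * (lam ^ 2 + 1) = 0 := by
          linear_combination -(q₁ - q₂) + (8 * lam ^ 3 + 16 * lam) * h3
        simp only [mul_eq_zero, or_self, or_false, false_or, h2, hlam] at h'
        linear_combination h'
      refine hexc ⟨?_, hl2⟩
      have h9 : ∀ x : F, x ^ 9 = x := by
        intro x
        have hx : x ∈ RingHom.eqLocusField ((frobenius F 3).comp (frobenius F 3)) (RingHom.id F) := by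
          refine (Subfield.closure_le.2 ?_) (hgen.symm ▸ Subfield.mem_top x)
          intro y hy
          rw [Set.mem_singleton_iff] at hy
          subst hy
          show (y ^ 3) ^ 3 = y
          linear_combination (y ^ 7 - y ^ 5 + y ^ 3 - y) * hl2
        rw [show x ^ 9 = (x ^ 3) ^ 3 by ring]
        exact hx
      obtain ⟨u, hu⟩ := IsCyclic.exists_generator (α := Fˣ)
      have hu8 : orderOf u ∣ 8 := orderOf_dvd_of_pow_eq_one (Units.ext (by
        have := h9 (u : F)
        simp only [Units.val_pow_eq_pow_val, Units.val_one]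
        exact mul_left_cancel₀ u.ne_zero (by rw [mul_one, ← pow_succ']; exact this)))
      rw [orderOf_eq_card_of_forall_mem_zpowers hu, Linear.card_units_eq, hcard] at hu8
      have hn3 : (n : ℕ) < 3 := by
        by_contra hh
        have := Nat.pow_le_pow_right (show 3 > 0 by norm_num) (show 3 ≤ (n : ℕ) by omega)
        have := Nat.le_of_dvd (by norm_num) hu8
        omega
      have hn1 : (n : ℕ) ≠ 1 := by
        intro hn1
        rw [hn1, pow_one] at hcard
        have hx := FiniteField.pow_card lam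
        rw [hcard] at hx
        have : (2 : F) * lam = 0 := by linear_combination -hx + lam * hl2
        exact hlam ((mul_eq_zero.1 this).resolve_left h2)
      have hn2 : (n : ℕ) = 2 := by have := n.pos; omega
      rw [hcard, hn2]; norm_num
    · have h5 : (5 : F) = 0 := by exact_mod_cast CharP.cast_eq_zero F 5
      refine hnotin _ (Or.inl rfl) ?_
      have : ((2 + lam) ^ 2 + 1) ^ 2 = 0 := by linear_combination q₁ + (2 + lam) ^ 2 * h5
      have h4 : (2 + lam) ^ 2 = 2 * 2 := by linear_combination (pow_eq_zero_iff two_ne_zero).1 this - h5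
      rcases mul_self_eq_mul_self_iff.1 (show (2 + lam) * (2 + lam) = 2 * 2 by rw [← pow_two]; exact h4)
        with h' | h' <;> rw [h']
      · exact natCast_mem _ 2
      · exact neg_mem (natCast_mem _ 2)
  · have hsub : ∀ g ∈ H, h⁻¹ * projHom φ g * h ∈ (MaxSub.Dickson.subPGL F₀).range := by
      intro g hg
      have hm : h⁻¹ * projHom φ g * h ∈ G.map (MulAut.conj h⁻¹).toMonoidHom :=
        ⟨_, ⟨g, hg, rfl⟩, by simp [MulAut.conj_apply]⟩
      rcases hmap with hm' | ⟨hm', -⟩
      · exact hm' ▸ hm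
      · rw [hm'] at hm
        obtain ⟨y, hy⟩ := hm
        exact ⟨_, hy⟩
    have m₁ := trace_sq_mem φ F₀ h g₁ (hsub g₁ (mul_mem hU hL))
    have m₂ := trace_sq_mem φ F₀ h g₂ (hsub g₂ (mul_mem (inv_mem hU) hL))
    rw [t₁] at m₁
    rw [t₂] at m₂
    have hlamF : φ lam ∈ F₀ := by
      have h8 : φ (2 * 2 * 2 * lam) ∈ F₀ := by
        rw [show φ (2 * 2 * 2 * lam) = φ (2 + lam) ^ 2 - φ (2 - lam) ^ 2 by
          rw [← map_pow, ← map_pow, ← map_sub]; congr 1; ring]
        exact sub_mem m₁ m₂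
      rw [map_mul, map_mul, map_mul, map_ofNat] at h8
      have h2K : (2 : K) ∈ F₀ := natCast_mem _ 2
      have h2K0 : (2 : K) ≠ 0 := by rw [← map_ofNat φ 2]; exact (map_ne_zero φ).2 h2
      have := div_mem h8 (mul_mem (mul_mem h2K h2K) h2K)
      rwa [mul_div_cancel_left₀ _ (by simp [h2K0])] at this
    haveI : Fintype F₀ := Fintype.ofFinite F₀
    have hall : ∀ x : F, φ x ∈ F₀ := by
      intro x
      have : x ∈ F₀.comap φ :=
        (Subfield.closure_le.2 (by simpa using hlamF)) (hgen.symm ▸ Subfield.mem_top x)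
      exact this
    have hle : Fintype.card F ≤ Fintype.card F₀ :=
      Fintype.card_le_of_injective (fun x => (⟨φ x, hall x⟩ : F₀)) fun x y e =>
        φ.injective (congrArg Subtype.val e)
    have hoddF : Odd (Fintype.card F) := by
      rw [hcard]; exact (hp.odd_of_ne_two hp2).pow
    have hodd₀ : Odd (Fintype.card F₀) := by
      haveI : CharP F₀ p := F₀.subtype.charP F₀.subtype.injective p
      obtain ⟨m, hp', hm⟩ := FiniteField.card F₀ p
      rw [hm]; exact (hp.odd_of_ne_two hp2).pow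
    have hGcard : Nat.card (Matrix.ProjectiveSpecialLinearGroup (Fin 2) F) ≤ Nat.card G := by
      refine (card_PSL_two_mul_mono hoddF hodd₀ hle).trans ?_
      have hG : Nat.card (G.map (MulAut.conj h⁻¹).toMonoidHom : Subgroup PGL(2, K)) = Nat.card G :=
        Subgroup.card_map_of_injective (MulAut.conj h⁻¹).injective
      rw [← hG]
      rw [Nat.card_congr (MonoidHom.ofInjective (MaxSub.Dickson.subPSL_injective F₀)).toEquiv]
      haveI : Finite (G.map (MulAut.conj h⁻¹).toMonoidHom : Subgroup PGL(2, K)) := by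
        rw [← Nat.card_pos_iff.trans (and_iff_right (One.instNonempty))]
        rw [hG]; exact Nat.card_pos
      refine Nat.card_le_card_of_injective (Subgroup.inclusion ?_) (Subgroup.inclusion_injective _)
      rcases hmap with hm' | ⟨hm', -⟩
      · rw [hm']
        rintro _ ⟨y, rfl⟩
        exact ⟨_, rfl⟩
      · rw [hm']
    let ψ : H →* G := (projHom φ).subgroupMap H
    have hψ : Function.Surjective ψ := MonoidHom.subgroupMap_surjective _ _
    have hHG : Nat.card ψ.ker * Nat.card G = Nat.card H := by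
      have h := ψ.ker.card_mul_index
      rwa [Subgroup.index_ker, MonoidHom.range_eq_top.2 hψ, Subgroup.card_top] at h
    have hker : 2 ≤ Nat.card ψ.ker := by
      have h24 : 2 ∣ Nat.card H := by
        have h1 := Linear.card_PSL_two_mul (F := F₀)
        rw [Linear.gcd_two_of_odd hodd₀] at h1
        have hev : 2 ∣ Nat.card G := by
          have hG : Nat.card (G.map (MulAut.conj h⁻¹).toMonoidHom : Subgroup PGL(2, K)) = Nat.card G :=
            Subgroup.card_map_of_injective (MulAut.conj h⁻¹).injective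
          rw [← hG]
          have hdv : Nat.card (Matrix.ProjectiveSpecialLinearGroup (Fin 2) F₀) ∣
              Nat.card (G.map (MulAut.conj h⁻¹).toMonoidHom : Subgroup PGL(2, K)) := by
            rw [Nat.card_congr (MonoidHom.ofInjective (MaxSub.Dickson.subPSL_injective F₀)).toEquiv]
            refine Subgroup.card_dvd_of_le ?_
            rcases hmap with hm' | ⟨hm', -⟩
            · rw [hm']
              rintro _ ⟨y, rfl⟩
              exact ⟨_, rfl⟩
            · rw [hm']
          refine dvd_trans ?_ hdv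
          obtain ⟨k, hk⟩ := hodd₀
          rw [hk, Nat.add_sub_cancel] at h1
          refine ⟨(2 * k + 1) * k * (k + 1), ?_⟩
          have : (2 * k + 1) * (2 * k) * (2 * k + 1 + 1) = 4 * ((2 * k + 1) * k * (k + 1)) := by ring
          rw [this] at h1
          omega
        exact hHG ▸ hev.mul_left _
      haveI : Fact (Nat.Prime 2) := ⟨Nat.prime_two⟩
      obtain ⟨x, hx⟩ := exists_prime_orderOf_dvd_card' 2 h24
      have hx2 : (x : SL(2, F)) ^ 2 = 1 := by
        have := congrArg Subtype.val (pow_orderOf_eq_one x)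
        rwa [hx] at this
      have hxk : x ∈ ψ.ker := by
        rcases eq_one_or_neg_of_sq h2 hx2 with h' | h'
        · rw [show x = 1 from Subtype.ext h']; exact one_mem _
        · refine Subtype.ext ?_
          show projHom φ (x : SL(2, F)) = 1
          rw [h']
          have hcen : Matrix.SpecialLinearGroup.map φ (-1 : SL(2, F)) ∈
              Subgroup.center SL(2, K) := by
            refine Matrix.SpecialLinearGroup.mem_center_iff.2 ⟨-1, by norm_num, ?_⟩
            ext i j; fin_cases i <;> fin_cases j <;> simp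
          rw [← Matrix.SpecialLinearGroup.toPGL_ker] at hcen
          exact hcen
      by_contra hlt
      have : Subsingleton ψ.ker := (Nat.card_eq_one_iff_unique.1 (by have := Nat.card_pos (α := ψ.ker); omega)).1
      have : (⟨x, hxk⟩ : ψ.ker) = 1 := Subsingleton.elim _ _
      rw [show x = 1 from congrArg Subtype.val this, orderOf_one] at hx
      omega
    have hPSL := Linear.card_PSL_two_mul (F := F)
    rw [Linear.gcd_two_of_odd hoddF, ← Linear.card_SL_two] at hPSL
    refine Subgroup.eq_top_of_card_eq H (le_antisymm (Subgroup.card_le_card_group H) ?_)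
    rw [← hPSL, ← hHG]
    exact Nat.mul_le_mul hker hGcard

end Cfsg.Agent.PSLTwoSub
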